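import Cfsg.Agent.H5.DC4

/-! Conjugation action, product models, homomorphisms from diagonal subgroups. -/

set_option autoImplicit false

namespace Cfsg.Agent.H5

open Subgroup

section conj

variable {G M : Type*} [Group G] [Monoid M]

/-- elements of `M` with the conjugation action through `φ` -/
@[ext] structure Cj (φ : G →* M) where
  x : M

instance (φ : G →* M) : MulAction G (Cj φ) where
  smul g v := ⟨φ g * (v.x * φ g⁻¹)⟩
  one_smul v := Cj.ext (by change φ 1 * (v.x * φ 1⁻¹) = v.x; simp)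
  mul_smul g h v := Cj.ext (by
    change φ (g * h) * (v.x * φ (g * h)⁻¹) = φ g * ((φ h * (v.x * φ h⁻¹)) * φ g⁻¹)
    simp only [mul_inv_rev, map_mul, mul_assoc])

theorem Cj.smul_x (φ : G →* M) (g : G) (v : Cj φ) : (g • v).x = φ g * (v.x * φ g⁻¹) := rfl

noncomputable def rowC (T : ℕ → ℕ) (A i : ℕ) : ℕ := force (Nat.add (Nat.mul 64 A) i) T

noncomputable def imgC (mul : ℕ → ℕ → ℕ) (gl gi T : ℕ → ℕ) (A s _c i : ℕ) : ℕ :=
  mul (gl s) (mul (rowC T A i) (gi s))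

noncomputable def canC (mul : ℕ → ℕ → ℕ) (one : ℕ) (T : ℕ → ℕ) (A i : ℕ) : ℕ :=
  Nat.xor (mul one (rowC T A i)) (rowC T A i)

namespace Mdl

variable {m : Mdl G M}

/-- `gi` lists the inverses of `gl` -/
def Inv (m : Mdl G M) (gl gi : ℕ → ℕ) : Prop := ∀ s, m.ev (gl s) * m.ev (gi s) = 1

theorem inv_of_chkI {a b : ℕ → ℕ} {n : ℕ}
    (h : ∀ s < n, chkI m.mul m.one (pad m.one n a) (pad m.one n b) s = 0) :
    m.Inv (pad m.one n a) (pad m.one n b) := fun s => by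
  by_cases hs : s < n
  · rw [← m.ev_mul, xor_eq_zero' (add_eq_zero' (h s hs)).1, m.ev_one]
  · rw [pad_eq, pad_eq, if_neg hs, if_neg hs, m.ev_one, one_mul]

theorem Inv.cons1 {gl gi : ℕ → ℕ} (h : m.Inv gl gi) {a b : ℕ} (e : m.mul a b = m.one) :
    m.Inv (cons1 a gl) (cons1 b gi) := fun s => by
  cases s with
  | zero => exact (m.ev_mul a b).symm.trans (by rw [e, m.ev_one])
  | succ s => exact h s

theorem phi_inv {g : G} {a b : M} (e : m.φ g = a) (h : a * b = 1) : m.φ g⁻¹ = b := by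
  rw [← mul_one (m.φ g⁻¹), ← h, ← e, ← mul_assoc, ← map_mul, inv_mul_cancel, map_one, one_mul]

theorem actsC {gl gi : ℕ → ℕ} (h : m.Inv gl gi) (T : ℕ → ℕ) :
    m.Acts (fun x => (⟨m.ev x⟩ : Cj m.φ)) (imgC m.mul gl gi T) (rowC T) gl :=
  fun s g e A c i _ => Cj.ext (by
    rw [Cj.smul_x, phi_inv e (h s), e, imgC]
    exact (m.ev_mul _ _).trans (congrArg _ (m.ev_mul _ _)))

/-- products are canonical codes -/
def Canon (m : Mdl G M) : Prop := ∀ a b c d, m.ev (m.mul a b) = m.ev (m.mul c d) → m.mul a b = m.mul c d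

theorem canTC (h : m.Canon) (T : ℕ → ℕ) :
    CanT (fun x => (⟨m.ev x⟩ : Cj m.φ)) (canC m.mul m.one T) (rowC T) :=
  fun _ _ _ _ _ _ e1 e2 e => by
    have e3 := congrArg Cj.x e
    dsimp only at e3
    rw [← xor_eq_zero' e1, ← xor_eq_zero' e2] at e3 ⊢
    exact h _ _ _ _ e3

theorem ne_of_canon (h : m.Canon) {a b c d : ℕ} (e : m.mul a b ≠ m.mul c d) :
    m.ev a * m.ev b ≠ m.ev c * m.ev d := fun e' => e (h _ _ _ _ (by rw [m.ev_mul, m.ev_mul, e']))

theorem mem_stab_iff {g x : G} {a : ℕ} (e : m.φ x = m.ev a) :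
    g ∈ MulAction.stabilizer G (⟨m.ev a⟩ : Cj m.φ) ↔ g * x = x * g := by
  rw [MulAction.mem_stabilizer_iff, Cj.ext_iff, Cj.smul_x, ← e, ← map_mul, ← map_mul,
    m.inj.eq_iff, ← mul_assoc, mul_inv_eq_iff_eq_mul]

end Mdl

theorem Cfg.Ok.canon {C : Cfg} (h : C.Ok) {F : Type*} [CommRing F] [CharP F C.p] {N : ℕ}
    (hN : C.n = N) (hr : C.r = N) (φ : G →* Matrix (Fin N) (Fin N) F)
    (inj : Function.Injective φ) : (h.mdl F hN hr φ inj).Canon := by
  subst hN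
  intro a b c d e
  change C.ev F _ (C.mul a b) = C.ev F _ (C.mul c d) at e
  change C.mul a b = C.mul c d
  unfold Cfg.mul at e ⊢
  have hp : 0 < C.p := lt_trans one_pos h.p1
  have h0 := Nat.pos_of_ne_zero h.n0
  rw [h.pm_eq, h.pm_eq] at e ⊢
  refine pack_congr fun t ht => ?_
  have h1 : t / C.n < C.n := Nat.div_lt_of_lt_mul (by rwa [hr] at ht)
  have := congrFun (congrFun e ⟨t % C.n, Nat.mod_lt _ h0⟩) ⟨t / C.n, h1⟩
  simp only [Cfg.ev, Nat.div_add_mod] at this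
  rw [h.ent_pack (fun _ _ => Nat.mod_lt _ hp) ht, h.ent_pack (fun _ _ => Nat.mod_lt _ hp) ht] at this
  exact CharP.natCast_injOn_Iio F C.p (Nat.mod_lt _ hp) (Nat.mod_lt _ hp) this

theorem Cfg.Ok.mul_lt {C : Cfg} (h : C.Ok) (a b : ℕ) : C.mul a b < 2 ^ (C.w * (C.r * C.n)) := by
  unfold Cfg.mul
  rw [h.pm_eq, pow_mul]
  exact pack_lt fun i _ => (Nat.mod_lt _ (lt_trans one_pos h.p1)).trans_le h.pw

end conj

section prod

def lo (W a : ℕ) : ℕ := Nat.land a (Nat.pred (Nat.pow 2 W))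
def pr (W a b : ℕ) : ℕ := Nat.add a (Nat.shiftLeft b W)

theorem lo_pr {W a : ℕ} (h : a < 2 ^ W) (b : ℕ) : lo W (pr W a b) = a := by
  change (a + b <<< W) &&& (2 ^ W - 1) = a
  rw [Nat.and_two_pow_sub_one_eq_mod, Nat.shiftLeft_eq, Nat.add_mul_mod_self_right,
    Nat.mod_eq_of_lt h]

theorem hi_pr {W a : ℕ} (h : a < 2 ^ W) (b : ℕ) : Nat.shiftRight (pr W a b) W = b := by
  change (a + b <<< W) >>> W = b
  rw [Nat.shiftRight_eq_div_pow, Nat.shiftLeft_eq, Nat.add_mul_div_right _ _ (Nat.two_pow_pos W),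
    Nat.div_eq_of_lt h, zero_add]

noncomputable def mulP (W : ℕ) (m1 m2 : ℕ → ℕ → ℕ) (a b : ℕ) : ℕ :=
  force a fun a => force b fun b =>
    pr W (m1 (lo W a) (lo W b)) (m2 (Nat.shiftRight a W) (Nat.shiftRight b W))

variable {G M H N : Type*} [Group G] [Monoid M] [Group H] [Monoid N]

/-- the product of two models -/
noncomputable def Mdl.prod (m : Mdl G M) (n : Mdl H N) (W : ℕ) (h1 : ∀ a b, m.mul a b < 2 ^ W)
    (h2 : m.one < 2 ^ W) : Mdl (G × H) (M × N) where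
  φ := m.φ.prodMap n.φ
  inj := m.inj.prodMap n.inj
  ev a := (m.ev (lo W a), n.ev (Nat.shiftRight a W))
  mul := mulP W m.mul n.mul
  ev_mul a b := by
    rw [mulP, force_eq, force_eq, lo_pr (h1 _ _), hi_pr (h1 _ _), m.ev_mul, n.ev_mul]; rfl
  one := pr W m.one n.one
  ev_one := by rw [lo_pr h2, hi_pr h2, m.ev_one, n.ev_one]; rfl

attribute [irreducible] mulP

/-- the table `gl` pairs the tables `g1` and `g2` -/
noncomputable def chkPr (W : ℕ) (gl g1 g2 : ℕ → ℕ) (s : ℕ) : ℕ :=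
  Nat.add (Nat.xor (lo W (gl s)) (g1 s)) (Nat.xor (Nat.shiftRight (gl s) W) (g2 s))

namespace Mdl

variable {m : Mdl G M} {n : Mdl H N} {W : ℕ} {h1 : ∀ a b, m.mul a b < 2 ^ W} {h2 : m.one < 2 ^ W}

theorem in_prod {gl g1 g2 : ℕ → ℕ} {k : ℕ} (h : ∀ s < k, chkPr W gl g1 g2 s = 0)
    (a1 : ∀ s < k, m.In ⊤ (g1 s)) (a2 : ∀ s < k, n.In ⊤ (g2 s)) :
    ∀ s < k, (m.prod n W h1 h2).In ⊤ (gl s) := fun s hs => by
  obtain ⟨x, -, ex⟩ := a1 s hs
  obtain ⟨y, -, ey⟩ := a2 s hs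
  obtain ⟨e1, e2⟩ := add_eq_zero' (h s hs)
  exact ⟨(x, y), mem_top _, Prod.ext (ex.trans (congrArg m.ev (xor_eq_zero' e1).symm))
    (ey.trans (congrArg n.ev (xor_eq_zero' e2).symm))⟩

theorem map_fst_gn {gl g1 g2 : ℕ → ℕ} {k : ℕ} (h : ∀ s < k, chkPr W gl g1 g2 s = 0)
    (a2 : ∀ s < k, n.In ⊤ (g2 s)) :
    ((m.prod n W h1 h2).gn gl k).map (MonoidHom.fst G H) = m.gn g1 k := by
  rw [gn, gn, MonoidHom.map_closure]
  congr 1
  ext x
  constructor
  · rintro ⟨p, ⟨s, hs, e⟩, rfl⟩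
    exact ⟨s, hs, (congrArg Prod.fst e).trans
      (congrArg m.ev (xor_eq_zero' (add_eq_zero' (h s hs)).1))⟩
  · rintro ⟨s, hs, e⟩
    obtain ⟨y, -, ey⟩ := a2 s hs
    obtain ⟨e1, e2⟩ := add_eq_zero' (h s hs)
    exact ⟨(x, y), ⟨s, hs, Prod.ext (e.trans (congrArg m.ev (xor_eq_zero' e1).symm))
      (ey.trans (congrArg n.ev (xor_eq_zero' e2).symm))⟩, rfl⟩

theorem map_snd_gn {gl g1 g2 : ℕ → ℕ} {k : ℕ} (h : ∀ s < k, chkPr W gl g1 g2 s = 0)
    (a1 : ∀ s < k, m.In ⊤ (g1 s)) :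
    ((m.prod n W h1 h2).gn gl k).map (MonoidHom.snd G H) = n.gn g2 k := by
  rw [gn, gn, MonoidHom.map_closure]
  congr 1
  ext y
  constructor
  · rintro ⟨p, ⟨s, hs, e⟩, rfl⟩
    exact ⟨s, hs, (congrArg Prod.snd e).trans
      (congrArg n.ev (xor_eq_zero' (add_eq_zero' (h s hs)).2))⟩
  · rintro ⟨s, hs, e⟩
    obtain ⟨x, -, ex⟩ := a1 s hs
    obtain ⟨e1, e2⟩ := add_eq_zero' (h s hs)
    exact ⟨(x, y), ⟨s, hs, Prod.ext (ex.trans (congrArg m.ev (xor_eq_zero' e1).symm))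
      (e.trans (congrArg n.ev (xor_eq_zero' e2).symm))⟩, rfl⟩

end Mdl

/-- a homomorphism from its graph -/
theorem exists_hom_of_diag [Finite G] [Finite H] (D : Subgroup (G × H)) {K : Subgroup G}
    (h1 : D.map (MonoidHom.fst G H) = K) (h2 : Nat.card D ≤ Nat.card K) :
    ∃ ψ : K →* H, ψ.range = D.map (MonoidHom.snd G H) ∧ ∀ (x : K) (y : H), (x.1, y) ∈ D → ψ x = y := by
  subst h1
  let f := (MonoidHom.fst G H).subgroupMap D
  have hf : Function.Bijective f :=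
    (MonoidHom.subgroupMap_surjective _ _).bijective_of_nat_card_le h2
  let e := MulEquiv.ofBijective f hf
  refine ⟨((MonoidHom.snd G H).comp D.subtype).comp e.symm.toMonoidHom, ?_, fun x y h => ?_⟩
  · rw [MonoidHom.range_comp, MonoidHom.range_eq_top.2 e.symm.surjective, ← MonoidHom.range_eq_map,
      MonoidHom.range_comp, range_subtype]
  · have : e.symm x = ⟨_, h⟩ := e.symm_apply_eq.2 rfl
    change (e.symm x).1.2 = y
    rw [this]

/-- two quotients with the same kernel -/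
noncomputable def equivOfKer {K : Type*} [Group K] (f : K →* G) (g : K →* H)
    (hf : Function.Surjective f) (hg : Function.Surjective g) (h : f.ker = g.ker) : G ≃* H :=
  (QuotientGroup.quotientKerEquivOfSurjective f hf).symm.trans
    ((QuotientGroup.quotientMulEquivOfEq h).trans (QuotientGroup.quotientKerEquivOfSurjective g hg))

end prod

section orbits

variable {G : Type*} [Group G] {X : Type*} [MulAction G X]

theorem orbit_eq_of_closed [Finite G] {S : Set G} {Y : ℕ → X} {n r : ℕ} (hr : r < n)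
    (h : Reach (closure S) Y n [r]) (hc : ∀ s ∈ S, ∀ i < n, ∃ j < n, s • Y i = Y j) :
    MulAction.orbit (closure S) (Y r) = Y '' {i | i < n} := by
  refine Set.Subset.antisymm ?_ (h.sub fun r' hr => ⟨1, one_mem _, by
    rw [List.mem_singleton.1 hr, one_smul]⟩)
  rintro _ ⟨⟨g, hg⟩, rfl⟩
  change g • Y r ∈ _
  refine closure_ind_fin (P := fun g => g • Y r ∈ Y '' {i | i < n})
    (fun s _ => isOfFinOrder_of_finite s) ⟨r, hr, by simp⟩ ?_ g hg
  rintro s hs g ⟨i, hi, e⟩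
  obtain ⟨j, hj, e'⟩ := hc s hs i hi
  exact ⟨j, hj, by rw [mul_smul, ← e, e']⟩

/-- orbits on the cosets of a point stabiliser in a quotient group -/
theorem ncard_orbit_quot {Q : Type*} [Group Q] (π : G →* Q) (hπ : Function.Surjective π) {x : X}
    {K : Subgroup G} (hK : MulAction.stabilizer G x = K) (hZ : π.ker ≤ K) (t : G) :
    (MulAction.orbit (K.map π) ((π t : Q) : Q ⧸ K.map π)).ncard =
      (MulAction.orbit K (t • x)).ncard := by
  have key : ∀ a b : G, ((π a : Q) : Q ⧸ K.map π) = (π b : Q) ↔ a • x = b • x := fun a b => by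
    rw [QuotientGroup.eq, ← map_inv, ← map_mul, ← mem_comap, comap_map_eq, sup_eq_left.2 hZ, ← hK,
      MulAction.mem_stabilizer_iff, mul_smul, inv_smul_eq_iff, eq_comm]
  have hs : ∀ c : Q ⧸ K.map π, ∃ a : G, ((π a : Q) : Q ⧸ K.map π) = c := fun c => by
    obtain ⟨q, rfl⟩ := QuotientGroup.mk_surjective c
    obtain ⟨a, rfl⟩ := hπ q
    exact ⟨a, rfl⟩
  choose s hs using hs
  refine Set.ncard_congr (fun c _ => s c • x) ?_ ?_ ?_
  · rintro _ ⟨⟨_, k, hk, rfl⟩, rfl⟩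
    refine ⟨⟨k, hk⟩, ?_⟩
    change k • t • x = _
    rw [← mul_smul, ← key, hs, map_mul]; rfl
  · intro a b _ _ e
    rw [← hs a, ← hs b, key, e]
  · rintro _ ⟨⟨k, hk⟩, rfl⟩
    refine ⟨_, ⟨⟨_, k, hk, rfl⟩, rfl⟩, ?_⟩
    change _ = k • t • x
    rw [← mul_smul, ← key, hs, map_mul]; rfl

end orbits

namespace Mdl

variable {G M : Type*} [Group G] [Monoid M] {m : Mdl G M} {X : Type*} [MulAction G X]

theorem orbit_gn [Finite G] {pv : ℕ → X} {img : ℕ → ℕ → ℕ → ℕ → ℕ} {row : ℕ → ℕ → ℕ}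
    {ch gl : ℕ → ℕ} {ng n r : ℕ} (acts : m.Acts pv img row gl) (hr : r < n)
    (h : Reach (m.gn gl ng) (fun i => pv (pt row ch i)) n [r])
    (hc : ∀ s < ng, ∃ A, ∀ i < n, chkC img row ch A n s i = 0) :
    MulAction.orbit (m.gn gl ng) (pv (pt row ch r)) = (fun i => pv (pt row ch i)) '' {i | i < n} :=
  orbit_eq_of_closed (Y := fun i => pv (pt row ch i)) hr h fun g ⟨s, hs, e⟩ =>
    let ⟨_, hA⟩ := hc s hs; closed_of_chk (acts s g e) hA

theorem exists_of_cos_bot {T : ℕ → ℕ} {g : G} {i : ℕ} (h : m.Cos ⊥ T g i) : m.φ g = m.ev (T i) := by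
  obtain ⟨k, hk, e⟩ := h
  rw [e, mem_bot.1 hk, map_one, mul_one]

end Mdl

end Cfsg.Agent.H5
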