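import Cfsg.Agent.H5.DC5

/-! Glue for double coset certificates. -/

set_option autoImplicit false

namespace Cfsg.Agent.H5

open Subgroup

section pure

variable {G : Type*} [Group G]

theorem dc_exact [Finite G] {H G' : Subgroup G} {d : ℕ → G} {n : ℕ}
    (h : ∀ g ∈ G', ∃ i < n, DCos H (d i) g) {A : ℕ} (hA : Nat.card H = A) (B C : ℕ → ℕ)
    (hB : ∀ i < n, B i ≤ Nat.card (Lc H (d i))) (e : ∀ i < n, A = B i * C i)
    (hG : A * ∑ i ∈ Finset.range n, C i ≤ Nat.card G') :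
    ∀ i < n, Nat.card (Lc H (d i)) = B i := by
  have hA0 : 0 < A := hA ▸ Nat.card_pos
  have h1 : ∀ i ∈ Finset.range n, (Lc H (d i)).relIndex H ≤ C i := fun i hi =>
    relIndex_le (Lc_le _ _) hA.le (hB i (Finset.mem_range.1 hi)) (e i (Finset.mem_range.1 hi))
  have h2 := hG.trans (dc_card h)
  rw [← Finset.mul_sum, hA] at h2
  have h3 := (Finset.sum_eq_sum_iff_of_le h1).1
    (le_antisymm (Finset.sum_le_sum h1) (Nat.le_of_mul_le_mul_left h2 hA0))
  intro i hi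
  have h4 : Nat.card (Lc H (d i)) * (Lc H (d i)).relIndex H = Nat.card H := by
    rw [← Nat.card_congr (subgroupOfEquivOfLe (Lc_le H (d i))).toEquiv]
    exact ((Lc H (d i)).subgroupOf H).card_mul_index
  rw [h3 i (Finset.mem_range.2 hi), hA, e i hi] at h4
  refine Nat.eq_of_mul_eq_mul_right (Nat.pos_of_ne_zero fun h0 => ?_) h4
  rw [e i hi, h0] at hA0
  omega

theorem normal_le_Lc {N H : Subgroup G} (hN : N.Normal) (h : N ≤ H) (d : G) : N ≤ Lc H d :=
  fun a ha => ⟨h ha, h (hN.conj_mem a ha d)⟩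

theorem dvd_step [Finite G] {X : Type*} [MulAction G X] {H K : Subgroup G} {x : X} {n B : ℕ}
    (h : Nat.card H = n * Nat.card (H ⊓ MulAction.stabilizer G x : Subgroup G)) (h1 : K ≤ H)
    (h2 : K ≤ MulAction.stabilizer G x) (hB : B ∣ Nat.card K) : n * B ∣ Nat.card H :=
  h ▸ Nat.mul_dvd_mul_left n (hB.trans (card_dvd_of_le (le_inf h1 h2)))

/-- a simple group embeds into the quotient by a smaller normal subgroup -/
theorem exists_sub_quot [Finite G] (Z J : Subgroup G) [Z.Normal] (hJ : IsSimpleGroup J)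
    (h : Nat.card Z < Nat.card J) : ∃ K : Subgroup (G ⧸ Z), Nonempty (J ≃* K) := by
  let f : J →* G ⧸ Z := (QuotientGroup.mk' Z).comp J.subtype
  refine ⟨f.range, ⟨MonoidHom.ofInjective ?_⟩⟩
  rw [← MonoidHom.ker_eq_bot_iff]
  refine (hJ.eq_bot_or_eq_top_of_normal f.ker inferInstance).resolve_right fun h1 => ?_
  refine absurd (card_le_of_le (show J ≤ Z from fun x hx => ?_)) h.not_ge
  exact (QuotientGroup.eq_one_iff x).1 (h1 ▸ mem_top _ : (⟨x, hx⟩ : J) ∈ f.ker)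

theorem card_map_quot [Finite G] {Z K : Subgroup G} [Z.Normal] (h : Z ≤ K) :
    Nat.card (K.map (QuotientGroup.mk' Z)) * Nat.card Z = Nat.card K := by
  have h1 := (K.map (QuotientGroup.mk' Z)).card_mul_index
  have h2 := K.card_mul_index
  have h3 := Z.card_eq_card_quotient_mul_card_subgroup
  have h4 : (K.map (QuotientGroup.mk' Z)).index = K.index := by
    rw [index_map, QuotientGroup.ker_mk', sup_eq_left.2 h, QuotientGroup.range_mk', index_top,
      mul_one]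
  rw [h4] at h1
  refine Nat.eq_of_mul_eq_mul_right (Nat.pos_of_ne_zero K.index_ne_zero_of_finite) ?_
  rw [h2, h3, ← h1]; ring

end pure

theorem exists_getN {l : List ℕ} {x : ℕ} (h : x ∈ l) : ∃ s < l.length, getN l s = x := by
  induction l with
  | nil => simp at h
  | cons a l ih =>
    rcases List.mem_cons.1 h with rfl | h
    · exact ⟨0, by simp, rfl⟩
    · obtain ⟨s, hs, e⟩ := ih h
      exact ⟨s + 1, by simpa using hs, e⟩

/-- the middle elements of a list of double coset relations -/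
noncomputable def mid (e : ℕ → ℕ) (ws : List (List ℕ)) (s : ℕ) : ℕ := force (getN (getW ws s) 1) e

/-- entry `s` is a relation `D i * e a * D 1 = e b * D k * e c` with `k < nd` -/
noncomputable def chkR (mul : ℕ → ℕ → ℕ) (D e : ℕ → ℕ) (ws : List (List ℕ)) (i nd s : ℕ) : ℕ :=
  Nat.add (Nat.add (chkD mul D e ws s) (lt0 (getN (getW ws s) 4) nd))
    (Nat.add (Nat.xor (getN (getW ws s) 0) i) (Nat.xor (getN (getW ws s) 2) 1))

/-- `D (s + 2) = D i * e a * D 1` for the entry `[i, a]`, `i < s + 2` -/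
noncomputable def chkT (mul : ℕ → ℕ → ℕ) (D e : ℕ → ℕ) (ws : List (List ℕ)) (s : ℕ) : ℕ :=
  force (getN (getW ws s) 0) fun i => force (getN (getW ws s) 1) fun a =>
    Nat.add (Nat.xor (mul (D i) (mul (e a) (D 1))) (D (Nat.add s 2))) (lt0 i (Nat.add s 2))

/-- `z` commutes with `g s` -/
noncomputable def chkZ (mul : ℕ → ℕ → ℕ) (z : ℕ) (g : ℕ → ℕ) (s : ℕ) : ℕ :=
  Nat.xor (mul (g s) z) (mul z (g s))

namespace Mdl

variable {G M : Type*} [Group G] [Monoid M] {m : Mdl G M}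

theorem el_D {H : Subgroup G} {D0 e : ℕ → ℕ} {n : ℕ} {ws : List (List ℕ)} (he : m.El H e)
    (h0 : pad m.one (n + 2) D0 0 = m.one) (h1 : m.In H (pad m.one (n + 2) D0 1))
    (h : ∀ s < n, chkT m.mul (pad m.one (n + 2) D0) e ws s = 0) :
    m.El H (pad m.one (n + 2) D0) := by
  refine el_of_pad fun s => ?_
  induction s using Nat.strong_induction_on with
  | _ s ih =>
    intro hs
    obtain rfl | rfl | ⟨s, rfl⟩ : s = 0 ∨ s = 1 ∨ ∃ k, s = k + 2 :=
      (by rcases s with _ | _ | s <;> simp)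
    · rw [h0]; exact in_one _
    · exact h1
    · obtain ⟨h2, h3⟩ := add_eq_zero' (h s (by omega))
      have h4 : getN (getW ws s) 0 < s + 2 := lt_of_lt0 h3
      exact ((ih _ h4 (by omega)).mul ((he _).mul h1)).of_eq h2

theorem mem_of_chkD {H K : Subgroup G} {D e : ℕ → ℕ} {i a j b k c : ℕ} (hD : m.El ⊤ D)
    (he : m.El H e) (h : chkD m.mul D e [[i, a, j, b, k, c]] 0 = 0) (hK : H ≤ K)
    (hi : m.elt (D i) ∈ K) (hj : m.elt (D j) ∈ K) : m.elt (D k) ∈ K := by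
  obtain ⟨a', ha, b', hb, c', hc, -, e⟩ := eq_of_chkD hD he h
  have : m.elt (D i) * a' * m.elt (D j) ∈ K := K.mul_mem (K.mul_mem hi (hK ha)) hj
  rw [show m.elt (D i) * a' * m.elt (D j) = b' * m.elt (D k) * c' from e] at this
  rwa [K.mul_mem_cancel_right (hK hc), K.mul_mem_cancel_left (hK hb)] at this

theorem dc_roots {X : Type*} [MulAction G X] {pv : ℕ → X} {img : ℕ → ℕ → ℕ → ℕ → ℕ}
    {row : ℕ → ℕ → ℕ} {ch D e : ℕ → ℕ} {H L : Subgroup G} {n r nd i k : ℕ} {roots cs : List ℕ}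
    {ws : List (List ℕ)} (hD : m.El ⊤ D) (he : m.El H e)
    (ho : MulAction.orbit H (pv (pt row ch r)) = (fun i => pv (pt row ch i)) '' {i | i < n})
    (hK : H ⊓ MulAction.stabilizer G (pv (pt row ch r)) ≤ Lc H (m.elt (D 1))⁻¹)
    (hL : L ≤ Lc H (m.elt (D i))) (hR : Reach L (fun i => pv (pt row ch i)) n roots)
    (acts : m.Acts pv img row (mid e ws)) (hk : roots.length = k)
    (hM : ∀ s < k, chkM img row ch r ch roots cs s = 0)
    (hc : ∀ s < k, chkR m.mul D e ws i nd s = 0) :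
    ∀ h ∈ H, ∃ j < nd, DCos H (m.elt (D j)) (m.elt (D i) * h * m.elt (D 1)) := by
  intro h hh
  obtain ⟨l, hl, g, ⟨j, hj, hg⟩, p, hp, rfl⟩ := cover_of_reach (hL.trans (Lc_le _ _)) ho.le hR
    (Q := fun g => ∃ j < nd, DCos H (m.elt (D j)) (m.elt (D i) * g * m.elt (D 1)))
    (fun ρ hρ => by
      obtain ⟨s, hs, rfl⟩ := exists_getN hρ
      rw [hk] at hs
      obtain ⟨h1, h2⟩ := add_eq_zero' (hc s hs)
      obtain ⟨h3, h4⟩ := add_eq_zero' h1
      obtain ⟨h5, h6⟩ := add_eq_zero' h2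
      obtain ⟨a, ha, b, hb, c, hc', ea, e⟩ := eq_of_chkD hD he h3
      rw [xor_eq_zero' h5, xor_eq_zero' h6] at e
      exact ⟨a, ha, smul_of_chkM acts ea (hM s hs), _, lt_of_lt0 h4, b, hb, c, hc', e⟩) h hh
  exact ⟨j, hj, dc_step (hL hl) (hK hp) hg⟩

theorem gn_cons_le {a n : ℕ} {g : ℕ → ℕ} (ha : m.In ⊤ a) :
    m.gn (cons1 a g) (n + 1) ≤ m.gn g n ⊔ zpowers (m.elt a) := by
  rw [gn, closure_le]
  rintro x ⟨s, hs, e⟩
  cases s with
  | zero => exact mem_sup_right (m.inj (e.trans ha.elt.symm) ▸ mem_zpowers _)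
  | succ s => exact mem_sup_left (subset_closure ⟨s, by omega, e⟩)

theorem le_gn_cons (a n : ℕ) (g : ℕ → ℕ) : m.gn g n ≤ m.gn (cons1 a g) (n + 1) :=
  closure_mono fun _ ⟨s, hs, e⟩ => ⟨s + 1, by omega, e⟩

theorem in_gn_cons {a : ℕ} (ha : m.In ⊤ a) (n : ℕ) (g : ℕ → ℕ) :
    m.In (m.gn (cons1 a g) (n + 1)) a :=
  let ⟨x, _, e⟩ := ha; ⟨x, subset_closure ⟨0, by omega, e⟩, e⟩

theorem top_cons {a n : ℕ} {g : ℕ → ℕ} (h : ∀ s < n + 1, m.In ⊤ (cons1 a g s)) :
    ∀ s < n, m.In ⊤ (g s) := fun s hs => h (s + 1) (by omega)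

theorem dc_all [Finite G] {D g : ℕ → ℕ} {n nd : ℕ} (hn : 0 < nd)
    (h0 : D 0 = m.one) (h1 : m.In ⊤ (D 1))
    (step : ∀ i < nd, ∀ h ∈ m.gn g n, ∃ j < nd,
      DCos (m.gn g n) (m.elt (D j)) (m.elt (D i) * h * m.elt (D 1))) :
    ∀ x ∈ m.gn (cons1 (D 1) g) (n + 1), ∃ i < nd, DCos (m.gn g n) (m.elt (D i)) x :=
  fun x hx => dc_cover (d := fun i => m.elt (D i)) hn (by rw [h0, elt_one]) step x
    (gn_cons_le h1 hx)

theorem comm_of_chkZ {z n : ℕ} {g : ℕ → ℕ} (hz : m.In ⊤ z) (h : ∀ s < n, chkZ m.mul z g s = 0) :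
    m.gn g n ≤ centralizer {m.elt z} := by
  rw [gn, closure_le]
  rintro x ⟨s, hs, e⟩
  refine mem_centralizer_singleton_iff.2 (m.inj ?_)
  rw [map_mul, map_mul, e, hz.elt, ← m.ev_mul, ← m.ev_mul, xor_eq_zero' (h s hs)]

theorem mem_center_of_chkZ {z n : ℕ} {g : ℕ → ℕ} (hz : m.In ⊤ z)
    (h : ∀ s < n, chkZ m.mul z g s = 0) (ht : m.gn g n = ⊤) : m.In (center G) z :=
  ⟨_, mem_center_iff.2 fun x =>
    mem_centralizer_singleton_iff.1 (comm_of_chkZ hz h (ht ▸ mem_top x)), hz.elt⟩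

theorem orderOf_elt (hc : m.Canon) {H : Subgroup G} {a p : ℕ} (ha : m.In H a) (hp : p.Prime)
    (h1 : pw m.mul m.one a p = m.one) (h2 : m.mul a m.one ≠ m.mul m.one m.one) :
    orderOf (m.elt a) = p := by
  have := Fact.mk hp
  refine orderOf_eq_prime (pow_eq_one_of_powC ha.elt h1) fun e => ne_of_canon hc h2 ?_
  rw [← ha.elt, e, map_one, m.ev_one]

theorem prime_dvd (hc : m.Canon) {H : Subgroup G} {a p : ℕ} (ha : m.In H a) (hp : p.Prime)
    (h1 : pw m.mul m.one a p = m.one) (h2 : m.mul a m.one ≠ m.mul m.one m.one) :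
    p ∣ Nat.card H :=
  orderOf_elt hc ha hp h1 h2 ▸ H.orderOf_dvd_natCard ha.elt_mem

theorem dvd_gn [Finite G] {X : Type*} [MulAction G X] {pv : ℕ → X} {img : ℕ → ℕ → ℕ → ℕ → ℕ}
    {row : ℕ → ℕ → ℕ} {ch gl : ℕ → ℕ} {ng n r : ℕ} (acts : m.Acts pv img row gl)
    (hY : Dist (fun i => pv (pt row ch i)) n) (hr : r < n)
    (h : Reach (m.gn gl ng) (fun i => pv (pt row ch i)) n [r])
    (hc : ∀ s < ng, ∃ A, ∀ i < n, chkC img row ch A n s i = 0) :
    Nat.card (m.gn gl ng) =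
      n * Nat.card (m.gn gl ng ⊓ MulAction.stabilizer G (pv (pt row ch r)) : Subgroup G) :=
  dvd_card_of_closed (Y := fun i => pv (pt row ch i)) hY hr h fun g ⟨s, hs, e⟩ =>
    let ⟨_, hA⟩ := hc s hs; closed_of_chk (acts s g e) hA

end Mdl

end Cfsg.Agent.H5
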