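import Cfsg.Agent.H5.DC6

/-! Subgroups described by graphs; centralisers from certificates. -/

set_option autoImplicit false

namespace Cfsg.Agent.H5

open Subgroup

theorem permHom_inj {n R : Type*} [Fintype n] [DecidableEq n] [NonAssocSemiring R]
    [Nontrivial R] : Function.Injective (Matrix.permMatrixHom : Equiv.Perm n →* Matrix n n R) :=
  fun _ _ h => inv_injective (Equiv.ext fun x => Option.some_injective _
    (DFunLike.congr_fun (PEquiv.toMatrix_injective h) x))

theorem card_map_le' {G H : Type*} [Group G] [Group H] [Finite G] (D : Subgroup G) (f : G →* H) :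
    Nat.card (D.map f) ≤ Nat.card D :=
  Nat.card_le_card_of_surjective _ (MonoidHom.subgroupMap_surjective f D)

namespace Mdl

variable {G M H N : Type*} [Group G] [Monoid M] [Group H] [Monoid N]
variable {m : Mdl G M} {n : Mdl H N} {W : ℕ} {h1 : ∀ a b, m.mul a b < 2 ^ W} {h2 : m.one < 2 ^ W}

theorem El.snd {D : Subgroup (G × H)} {e : ℕ → ℕ} (h : (m.prod n W h1 h2).El D e) :
    n.El (D.map (MonoidHom.snd G H)) fun i => Nat.shiftRight (e i) W :=
  fun i => let ⟨g, hg, eg⟩ := h i; ⟨g.2, ⟨g, hg, rfl⟩, congrArg Prod.snd eg⟩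

end Mdl

/-- a group whose graph over a simple group is not too large -/
theorem equiv_of_diag {G H : Type*} [Group G] [Group H] [Finite G] [Finite H] [IsSimpleGroup G]
    (D : Subgroup (G × H)) {K : Subgroup H} (h1 : D.map (MonoidHom.fst G H) = ⊤)
    (h2 : D.map (MonoidHom.snd G H) = K) (h3 : Nat.card D ≤ Nat.card G) (h4 : 1 < Nat.card K) :
    Nonempty (G ≃* K) := by
  obtain ⟨ψ, a, -⟩ := exists_hom_of_diag D h1 (by rwa [card_top])
  rw [h2] at a
  let f := ψ.comp (topEquiv (G := G)).symm.toMonoidHom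
  have b : f.range = K := by
    rw [MonoidHom.range_comp, MonoidHom.range_eq_top.2 topEquiv.symm.surjective,
      ← MonoidHom.range_eq_map, a]
  refine ⟨(MonoidHom.ofInjective (f := f) ?_).trans (MulEquiv.subgroupCongr b)⟩
  rw [← MonoidHom.ker_eq_bot_iff]
  refine (IsSimpleGroup.eq_bot_or_eq_top_of_normal f.ker inferInstance).resolve_right fun h => ?_
  rw [← b, MonoidHom.range_eq_bot_iff.2 (MonoidHom.ker_eq_top_iff.1 h), card_bot] at h4
  omega

end Cfsg.Agent.H5
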