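import Cfsg.Agent.H5.DC7

/-! Centralisers from certificates; double covers from graphs. -/

set_option autoImplicit false

namespace Cfsg.Agent.H5

open Subgroup

section pure

variable {G : Type*} [Group G]

theorem core_simple {H N : Subgroup G} (hH : IsSimpleGroup H)
    (hN : N.Normal) (h : N ≤ H) {d : G} (hd : Lc H d ≠ H) : N ≤ ⊥ := by
  rcases hH.eq_bot_or_eq_top_of_normal (N.subgroupOf H) inferInstance with e | e
  · exact ((disjoint_iff.1 (subgroupOf_eq_bot.1 e)).symm ▸ le_inf le_rfl h : N ≤ ⊥)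
  · exact absurd (le_antisymm (Lc_le _ _) ((subgroupOf_eq_top.1 e).trans (normal_le_Lc hN h d))) hd

theorem sylow_conj [Finite G] {L S : Subgroup G} (hS : S ≤ L) {p k r : ℕ} (hp : p.Prime)
    (h1 : Nat.card S = p ^ k) (h2 : Nat.card L = p ^ k * r) (hr : ¬ p ∣ r) {u : G} (hu : u ∈ L)
    (hup : u ^ p = 1) : ∃ l ∈ L, ∃ s ∈ S, u = l * s * l⁻¹ := by
  have := Fact.mk hp
  have h3 : Nat.card (S.subgroupOf L) = p ^ k := by
    rw [Nat.card_congr (subgroupOfEquivOfLe hS).toEquiv, h1]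
  have h4 : (S.subgroupOf L).index = r := by
    have := (S.subgroupOf L).card_mul_index
    rw [h3, h2] at this
    exact Nat.eq_of_mul_eq_mul_left (pow_pos hp.pos k) this
  let P : Sylow p L := (IsPGroup.of_card h3).toSylow (h4 ▸ hr)
  have h5 : IsPGroup p (zpowers (⟨u, hu⟩ : L)) := by
    refine IsPGroup.iff_orderOf.2 fun g => ?_
    have : orderOf g ∣ p := by
      obtain ⟨_, n, rfl⟩ := g
      refine orderOf_dvd_of_pow_eq_one (Subtype.ext (Subtype.ext ?_))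
      change (u ^ n) ^ p = 1
      rw [← zpow_natCast, ← zpow_mul, mul_comm, zpow_mul, zpow_natCast, hup, one_zpow]
    rcases (Nat.dvd_prime hp).1 this with e | e
    exacts [⟨0, by rw [e, pow_zero]⟩, ⟨1, by rw [e, pow_one]⟩]
  obtain ⟨Q, hQ⟩ := h5.exists_le_sylow
  obtain ⟨g, hg⟩ := MulAction.exists_smul_eq L P Q
  have h6 : (⟨u, hu⟩ : L) ∈ (g • P : Sylow p L) := hg ▸ hQ (mem_zpowers _)
  obtain ⟨s, hs, e⟩ := h6
  exact ⟨g, g.2, s, hs, (congrArg Subtype.val e).symm⟩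

variable {X : Type*} [MulAction G X]

/-- centralisers along a point stabiliser -/
theorem cent_step {H K C : Subgroup G} {z : G} {Y F : ℕ → X} {n k r : ℕ}
    (ho : MulAction.orbit H (F r) = Y '' {i | i < n}) (hK : H ⊓ MulAction.stabilizer G (F r) = K)
    (hz : z ∈ MulAction.stabilizer G (F r)) (hC : C ≤ centralizer {z})
    (hx : ∀ i < n, z • Y i = Y i → ∃ j < k, Y i = F j) (hR : Reach (C ⊓ H) F k [r])
    (h : K ⊓ centralizer {z} ≤ C) : H ⊓ centralizer {z} ≤ C := by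
  rintro g ⟨hg, hgz⟩
  obtain ⟨i, hi, e⟩ : g • F r ∈ Y '' {i | i < n} := ho ▸ ⟨⟨g, hg⟩, rfl⟩
  obtain ⟨j, hj, e'⟩ := hx i hi (by
    rw [e, ← mul_smul, ← mem_centralizer_singleton_iff.1 hgz, mul_smul, hz])
  obtain ⟨r', hr', c, hc, e''⟩ := hR j hj
  rw [List.mem_singleton.1 hr', ← e', e, ← mul_smul] at e''
  exact (C.mul_mem_cancel_left hc.1).1 (h ⟨hK ▸ ⟨H.mul_mem hc.2 hg, e''⟩, mul_mem (hC hc.1) hgz⟩)

theorem cent_step' {H K C : Subgroup G} {z : G} {Y F : ℕ → X} {n k r : ℕ} {x : X} (e : x = F r)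
    (ho : MulAction.orbit H x = Y '' {i | i < n}) (hK : H ⊓ MulAction.stabilizer G x = K)
    (hz : z ∈ MulAction.stabilizer G x) (hC : C ≤ centralizer {z})
    (hx : ∀ i < n, z • Y i = Y i → ∃ j < k, Y i = F j) (hR : Reach (C ⊓ H) F k [r])
    (h : K ⊓ centralizer {z} ≤ C) : H ⊓ centralizer {z} ≤ C := by
  subst e; exact cent_step ho hK hz hC hx hR h

/-- centralisers from the double cosets -/
theorem cent_dc {H G' C : Subgroup G} {z : G} {d : ℕ → G} {n : ℕ} (h0 : d 0 = 1)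
    (h : ∀ g ∈ G', ∃ i < n, DCos H (d i) g) (hz : z ∈ H) (hC : C ≤ centralizer {z})
    (hH : H ⊓ centralizer {z} ≤ C)
    (hd : ∀ i < n, 0 < i → ∀ u ∈ Lc H (d i), IsConj z u → ∃ l ∈ Lc H (d i), ∃ a ∈ H, ∃ b ∈ H,
      ∃ c ∈ C, a * (l⁻¹ * u * l) = z * a ∧ d i = b * (c * a)) :
    G' ⊓ centralizer {z} ≤ C := by
  rintro g ⟨hg, hgz⟩
  obtain ⟨i, hi, a, ha, b, hb, rfl⟩ := h g hg
  rcases Nat.eq_zero_or_pos i with rfl | hpos
  · exact hH ⟨by rw [h0, mul_one]; exact H.mul_mem ha hb, hgz⟩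
  have e0 := mem_centralizer_singleton_iff.1 hgz
  obtain ⟨l, hl, m, hm, b', hb', c, hc, e1, e2⟩ := hd i hi hpos (b * z * b⁻¹)
    ⟨H.mul_mem (H.mul_mem hb hz) (H.inv_mem hb), by
      change d i * (b * z * b⁻¹) * (d i)⁻¹ ∈ H
      have : d i * (b * z * b⁻¹) * (d i)⁻¹ = a⁻¹ * z * a := by
        calc _ = a⁻¹ * (a * d i * b * z) * b⁻¹ * (d i)⁻¹ := by group
          _ = _ := by rw [e0]; group
      rw [this]
      exact H.mul_mem (H.mul_mem (H.inv_mem ha) hz) ha⟩ (isConj_iff.2 ⟨b, rfl⟩)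
  have h1 : m * l⁻¹ * b ∈ C := hH ⟨H.mul_mem (H.mul_mem hm (H.inv_mem hl.1)) hb,
    mem_centralizer_singleton_iff.2 (by
      calc _ = m * (l⁻¹ * (b * z * b⁻¹) * l) * l⁻¹ * b := by group
        _ = _ := by rw [e1]; group)⟩
  have e3 : a * d i * b = a * (d i * l * (d i)⁻¹) * b' * (c * (m * l⁻¹ * b)) := by
    calc _ = a * (d i * l * (d i)⁻¹) * d i * l⁻¹ * b := by group
      _ = _ := by nth_rewrite 3 [e2]; group
  have h2 := C.mul_mem hc h1
  rw [e3] at hgz ⊢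
  exact C.mul_mem (hH ⟨H.mul_mem (H.mul_mem ha hl.2) hb',
    ((centralizer {z}).mul_mem_cancel_right (hC h2)).1 hgz⟩) h2

end pure

/-- nonzero iff `a = b` -/
noncomputable def ne0 (a b : ℕ) : ℕ := ifz (Nat.xor a b) (nat_lit 1) (nat_lit 0)

theorem ne_of_ne0 {a b : ℕ} (h : ne0 a b = 0) : a ≠ b := by
  rintro rfl
  rw [ne0, ifz_eq, if_pos (show Nat.xor a a = 0 from Nat.xor_self a)] at h
  exact absurd h Nat.one_ne_zero

/-- point `i` is moved by generator `s` or occurs in the list `chF` -/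
noncomputable def chkX (img : ℕ → ℕ → ℕ → ℕ → ℕ) (row : ℕ → ℕ → ℕ) (ch : ℕ → ℕ) (A : Tr) (n s : ℕ)
    (chF : ℕ → ℕ) (k i : ℕ) : ℕ :=
  force (aux A i) fun e => force (Nat.land e (nat_lit 16777215)) fun j =>
    ifz (Nat.shiftRight e (nat_lit 34))
      (Nat.add (chkC img row ch A n s i) (ne0 j i))
      (Nat.add (Nat.xor (pt row ch i) (pt row chF j)) (lt0 j k))

theorem fix_of_chkX {G : Type*} [Group G] {X : Type*} [MulAction G X] {pv : ℕ → X}
    {img : ℕ → ℕ → ℕ → ℕ → ℕ} {row : ℕ → ℕ → ℕ} {ch chF : ℕ → ℕ} {A : Tr} {n s k : ℕ} {g : G}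
    (hs : Img pv img row s g) (hY : Dist (fun i => pv (pt row ch i)) n)
    (h : ∀ i < n, chkX img row ch A n s chF k i = 0) :
    ∀ i < n, g • pv (pt row ch i) = pv (pt row ch i) →
      ∃ j < k, pv (pt row ch i) = pv (pt row chF j) := by
  intro i hi e
  have h1 := h i hi
  rw [chkX, force_eq, force_eq, ifz_eq] at h1
  split_ifs at h1 with h2
  · obtain ⟨h4, h3⟩ := add_eq_zero' h1
    simp only [chkC, force_eq] at h4
    obtain ⟨h5, h6⟩ := add_eq_zero' h4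
    exact absurd (hY _ (lt_of_lt0 h6) i hi (by
      beta_reduce; rw [← xor_eq_zero' h5, hs _ _ _ (land63 i)]; exact e)) (ne_of_ne0 h3)
  · obtain ⟨h5, h6⟩ := add_eq_zero' h1
    exact ⟨_, lt_of_lt0 h6, congrArg pv (xor_eq_zero' h5)⟩

/-- `T j` is not conjugate to `z`, or `a * T j = z * a` and `D = b * c * a` -/
noncomputable def chkQ (mul : ℕ → ℕ → ℕ) (one : ℕ) (tr : ℕ → ℕ) (z p D : ℕ) (T e e' : ℕ → ℕ)
    (ws : List (List ℕ)) (j : ℕ) : ℕ :=
  force (getN (getW ws j) 0) fun k => force (getN (getW ws j) 1) fun a =>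
  force (getN (getW ws j) 2) fun b => force (getN (getW ws j) 3) fun c =>
    ifz k (Nat.mul (ne0 (mul (T j) (pw mul one (T j) p)) (mul one one))
        (Nat.mul (Nat.xor (T j) one) (ne0 (tr (T j)) (tr z))))
      (Nat.add (Nat.xor (mul (e a) (T j)) (mul z (e a))) (Nat.xor (mul (e b) (mul (e' c) (e a))) D))

namespace Mdl

variable {G M : Type*} [Group G] [Monoid M] {m : Mdl G M}

theorem el_gn_cons {a n : ℕ} {g0 : ℕ → ℕ}
    (h : ∀ s < n + 1, m.In ⊤ (H5.cons1 a (pad m.one n g0) s)) :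
    m.El (m.gn (H5.cons1 a (pad m.one n g0)) (n + 1)) (H5.cons1 a (pad m.one n g0)) :=
  El.cons1 (in_gn_cons (h 0 (Nat.succ_pos n)) _ _) ((el_gn (top_cons h)).mono (le_gn_cons _ _ _))

/-- `tr` is a class function on codes -/
def Cls (m : Mdl G M) (tr : ℕ → ℕ) : Prop :=
  ∀ a b (g h : G), m.φ g = m.ev a → m.φ h = m.ev b → IsConj g h → tr a = tr b

theorem cent_root [Finite G] (hc : m.Canon) {tr T e e' : ℕ → ℕ} (htr : m.Cls tr) {H C S : Subgroup G}
    {z p D n k r : ℕ} {ws : List (List ℕ)} (hz : m.In ⊤ z) (hD : m.In ⊤ D) (hp : (p + 1).Prime)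
    (ho : orderOf (m.elt z) = p + 1) (he : m.El H e) (he' : m.El C e')
    (hS : S ≤ Lc H (m.elt D)) (h1 : Nat.card S = (p + 1) ^ k)
    (h2 : Nat.card (Lc H (m.elt D)) = (p + 1) ^ k * r) (hr : ¬ (p + 1) ∣ r)
    (hT : ∀ g ∈ S, ∃ i < n, m.Cos ⊥ T g i)
    (h : ∀ j < n, chkQ m.mul m.one tr z p D T e e' ws j = 0) :
    ∀ u ∈ Lc H (m.elt D), IsConj (m.elt z) u → ∃ l ∈ Lc H (m.elt D), ∃ a ∈ H, ∃ b ∈ H,
      ∃ c ∈ C, a * (l⁻¹ * u * l) = m.elt z * a ∧ m.elt D = b * (c * a) := by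
  intro u hu hj
  have h3 : orderOf u = p + 1 := by
    obtain ⟨c, rfl⟩ := isConj_iff.1 hj
    exact (MulEquiv.orderOf_eq (MulAut.conj c) _).trans ho
  obtain ⟨l, hl, s, hs, rfl⟩ := sylow_conj hS hp h1 h2 hr hu (h3 ▸ pow_orderOf_eq_one u)
  have h4 : orderOf s = p + 1 := (MulEquiv.orderOf_eq (MulAut.conj l) _).symm.trans h3
  obtain ⟨j, hj', es⟩ := hT s hs
  replace es := exists_of_cos_bot es
  have h5 := h j hj'
  simp only [chkQ, force_eq, ifz_eq] at h5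
  split_ifs at h5 with h6
  · exfalso
    rcases Nat.mul_eq_zero.1 h5 with h7 | h7
    · refine ne_of_canon hc (ne_of_ne0 h7) ?_
      rw [pw_eq, ev_powC, ← pow_succ', ← es, ← map_pow, ← h4, pow_orderOf_eq_one, map_one,
        m.ev_one, one_mul]
    rcases Nat.mul_eq_zero.1 h7 with h8 | h8
    · rw [xor_eq_zero' h8, m.ev_one, ← map_one m.φ] at es
      rw [m.inj es, orderOf_one] at h4
      exact hp.one_lt.ne h4
    · exact ne_of_ne0 h8 (htr _ _ _ _ es hz.elt ((isConj_iff.2 ⟨l, rfl⟩).trans hj.symm))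
  · obtain ⟨h7, h8⟩ := add_eq_zero' h5
    refine ⟨l, hl, _, (he (getN (getW ws j) 1)).elt_mem, _, (he (getN (getW ws j) 2)).elt_mem, _,
      (he' (getN (getW ws j) 3)).elt_mem, m.inj ?_, m.inj ?_⟩
    · rw [show l⁻¹ * (l * s * l⁻¹) * l = s by group, map_mul, map_mul, (he _).elt, es, hz.elt,
        ← m.ev_mul, xor_eq_zero' h7, m.ev_mul]
    · rw [hD.elt, map_mul, map_mul, (he _).elt, (he _).elt, (he' _).elt, ← xor_eq_zero' h8,
        m.ev_mul, m.ev_mul]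

/-- `T i` does not commute with `z` for `i > 0` -/
noncomputable def chkN (mul : ℕ → ℕ → ℕ) (z : ℕ) (T : ℕ → ℕ) (i : ℕ) : ℕ :=
  ifz i (nat_lit 0) (ne0 (mul (T i) z) (mul z (T i)))

theorem cent_cos (hc : m.Canon) {H K C : Subgroup G} {T : ℕ → ℕ} {z n : ℕ} (hz : m.In ⊤ z)
    (hK : K ≤ C) (hC : C ≤ centralizer {m.elt z}) (h0 : T 0 = m.one)
    (hT : ∀ g ∈ H, ∃ i < n, m.Cos K T g i) (h : ∀ i < n, chkN m.mul z T i = 0) :
    H ⊓ centralizer {m.elt z} ≤ C := by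
  rintro g ⟨hg, hgz⟩
  obtain ⟨i, hi, hcos⟩ := hT g hg
  have h1 := h i hi
  rw [chkN, ifz_eq] at h1
  split_ifs at h1 with h2
  · exact hcos.mem hK (by rw [h2, h0]; exact in_one _)
  · obtain ⟨t, ht, e⟩ := hcos.in (hK.trans hC) hgz
    refine absurd ?_ (ne_of_canon hc (ne_of_ne0 h1))
    rw [← e, ← hz.elt, ← map_mul, mem_centralizer_singleton_iff.1 ht, map_mul]

theorem le_stab_of_chkM {X : Type*} [MulAction G X] {pv : ℕ → X} {img : ℕ → ℕ → ℕ → ℕ → ℕ}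
    {row : ℕ → ℕ → ℕ} {gl ch ch' : ℕ → ℕ} (acts : m.Acts pv img row gl) (hg : m.In ⊤ (gl 0))
    {N : Subgroup G} (hN : N.Normal) {r j c : ℕ}
    (h : N ≤ MulAction.stabilizer G (pv (pt row ch r)))
    (hc : chkM img row ch r ch' [j] [c] 0 = 0) : N ≤ MulAction.stabilizer G (pv (pt row ch' j)) :=
  normal_le_stab hN h (H := ⊤) ⟨⟨_, mem_top _⟩, smul_of_chkM acts hg.elt hc⟩

theorem no_index_two {gl : ℕ → ℕ} {n p : ℕ} (h : ∀ s < n, m.In ⊤ (gl s)) (hp : Nat.Coprime p 2)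
    (hc : ∀ s < n, Nat.xor (pw m.mul m.one (gl s) p) m.one = 0) (L : Subgroup (m.gn gl n))
    (hL : L.index = 2) : False := by
  have := normal_of_index_eq_two hL
  have h1 : m.gn gl n ≤ L.map (Subgroup.subtype _) := gn_le fun s hs =>
    ⟨_, ⟨⟨_, (in_gn h s hs).elt_mem⟩, mem_of_coprime_index L (Subtype.ext
      (pow_eq_one_of_powC (h s hs).elt (xor_eq_zero' (hc s hs)))) (hL ▸ hp), rfl⟩, (h s hs).elt⟩
  have h2 : L = ⊤ := eq_top_iff.2 fun x _ => (mem_map_iff_mem (subtype_injective _)).1 (h1 x.2)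
  rw [h2, index_top] at hL
  omega

theorem gn_map {P : Type*} [Group P] (e : G ≃* P) (m' : Mdl P M) (hφ : ∀ g, m'.φ (e g) = m.φ g)
    (hev : m'.ev = m.ev) (gl : ℕ → ℕ) (n : ℕ) : m'.gn gl n = (m.gn gl n).map e.toMonoidHom := by
  rw [gn, gn, MonoidHom.map_closure]
  congr 1
  ext x
  constructor
  · rintro ⟨s, hs, h⟩
    obtain ⟨g, rfl⟩ := e.surjective x
    exact ⟨g, ⟨s, hs, by rw [← hφ, h, hev]⟩, rfl⟩
  · rintro ⟨g, ⟨s, hs, h⟩, rfl⟩
    exact ⟨s, hs, (hφ g).trans (by rw [h, hev])⟩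

theorem In.map {P : Type*} [Group P] (e : G ≃* P) (m' : Mdl P M) (hφ : ∀ g, m'.φ (e g) = m.φ g)
    (hev : m'.ev = m.ev) {a : ℕ} (h : m.In ⊤ a) : m'.In ⊤ a :=
  let ⟨g, _, h⟩ := h; ⟨e g, mem_top _, (hφ g).trans (by rw [h, hev])⟩

variable {H N : Type*} [Group H] [Monoid N]
variable {n : Mdl H N} {W : ℕ} {h1 : ∀ a b, m.mul a b < 2 ^ W} {h2 : m.one < 2 ^ W}

theorem El.fst {D : Subgroup (G × H)} {e : ℕ → ℕ} (h : (m.prod n W h1 h2).El D e) :
    m.El (D.map (MonoidHom.fst G H)) fun i => lo W (e i) :=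
  fun i => let ⟨g, hg, eg⟩ := h i; ⟨g.1, ⟨g, hg, rfl⟩, congrArg Prod.fst eg⟩

end Mdl

/-- the trace of a code -/
noncomputable def Cfg.trc (C : Cfg) (a : ℕ) : ℕ :=
  force a fun a => Nat.mod (sumTo (fun i => C.ent a (Nat.add (Nat.mul C.n i) i)) C.n) C.p

theorem Cfg.Ok.cls {G : Type*} [Group G] {C : Cfg} (h : C.Ok) {F : Type*} [CommRing F] [CharP F C.p]
    {N : ℕ} (hN : C.n = N) (hr : C.r = N) (φ : G →* Matrix (Fin N) (Fin N) F)
    (inj : Function.Injective φ) : (h.mdl F hN hr φ inj).Cls C.trc := by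
  subst hN
  have key : ∀ a, ((C.trc a : ℕ) : F) = (C.ev F C.n a).trace := fun a => by
    rw [Cfg.trc, force_eq, sumTo_eq]
    change (((_ : ℕ) % C.p : ℕ) : F) = _
    rw [← CharP.cast_eq_mod F C.p, Nat.cast_sum, ← Fin.sum_univ_eq_sum_range
      (fun i => ((C.ent a (Nat.add (Nat.mul C.n i) i) : ℕ) : F))]
    rfl
  have hp : 0 < C.p := lt_trans one_pos h.p1
  intro a b g g' ea eb hj
  obtain ⟨c, rfl⟩ := isConj_iff.1 hj
  refine CharP.natCast_injOn_Iio F C.p (Nat.mod_lt _ hp) (Nat.mod_lt _ hp) ?_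
  change φ _ = C.ev F C.n a at ea
  change φ _ = C.ev F C.n b at eb
  change ((C.trc a : ℕ) : F) = (C.trc b : ℕ)
  rw [key, key, ← ea, ← eb, map_mul, Matrix.trace_mul_comm, ← map_mul, inv_mul_cancel_left]

section cover

variable {G A : Type*} [Group G] [Group A] [Finite G] [Finite A]

theorem card_diag_le [IsSimpleGroup A] (D : Subgroup (G × A)) {K : Subgroup G}
    (h1 : D.map (MonoidHom.fst G A) = K) (h2 : D.map (MonoidHom.snd G A) = ⊤)
    (h3 : Nat.card D ≤ 2 * Nat.card A) (h4 : 2 < Nat.card K) : Nat.card D ≤ Nat.card K := by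
  subst h1
  have hN : (D.comap (MonoidHom.inr G A)).Normal := ⟨fun a ha g => by
    obtain ⟨x, hx, rfl⟩ : g ∈ D.map (MonoidHom.snd G A) := h2 ▸ mem_top g
    have := D.mul_mem (D.mul_mem hx ha) (D.inv_mem hx)
    refine mem_comap.2 (Eq.subst (Prod.ext ?_ ?_) this) <;> simp⟩
  rcases hN.eq_bot_or_eq_top with e | e
  · refine Nat.card_le_card_of_injective ((MonoidHom.fst G A).subgroupMap D) ?_
    rw [injective_iff_map_eq_one]
    rintro ⟨⟨x, y⟩, hxy⟩ h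
    obtain rfl : x = 1 := congrArg Subtype.val h
    have : y ∈ D.comap (MonoidHom.inr G A) := hxy
    rw [e, mem_bot] at this
    subst this; rfl
  · exfalso
    have : (D.map (MonoidHom.fst G A)).prod ⊤ ≤ D := by
      rintro ⟨_, y⟩ ⟨⟨x, hx, rfl⟩, -⟩
      have h5 : x.2⁻¹ * y ∈ D.comap (MonoidHom.inr G A) := e ▸ mem_top _
      exact Eq.subst (Prod.ext (by simp) (by simp)) (D.mul_mem hx h5)
    have h5 := card_le_of_le this
    rw [Nat.card_congr (prodEquiv _ _).toEquiv, Nat.card_prod, card_top] at h5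
    have : 0 < Nat.card A := Nat.card_pos
    nlinarith

theorem cover_of_diag [IsSimpleGroup A] (hZ : center A = ⊥)
    (D : Subgroup (G × A)) {K : Subgroup G}
    (h1 : D.map (MonoidHom.fst G A) = K) (h2 : D.map (MonoidHom.snd G A) = ⊤)
    (h3 : Nat.card D ≤ 2 * Nat.card A) {z : G} (hz : (z, 1) ∈ D) (hz1 : z ≠ 1)
    (hc : K ≤ centralizer {z}) (h4 : 2 < Nat.card K)
    (hg : ∀ L : Subgroup K, L.index = 2 → False) :
    Nat.card K = 2 * Nat.card A ∧ Nat.card (center K) = 2 ∧ Nonempty (K ⧸ center K ≃* A) ∧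
      ∀ L : Subgroup K, ¬ (center K).IsComplement' L := by
  have h5 := card_diag_le D h1 h2 h3 h4
  obtain ⟨ψ, a, b⟩ := exists_hom_of_diag D h1 h5
  have hs : Function.Surjective ψ := MonoidHom.range_eq_top.1 (a.trans h2)
  have hzK : z ∈ K := h1 ▸ ⟨_, hz, rfl⟩
  have h6 : center K ≤ ψ.ker := fun x hx => by
    rw [MonoidHom.mem_ker, ← mem_bot, ← hZ, mem_center_iff]
    intro g
    obtain ⟨g, rfl⟩ := hs g
    rw [← map_mul, mem_center_iff.1 hx, map_mul]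
  have h7 : Nontrivial (center K) := ⟨⟨⟨⟨z, hzK⟩, mem_center_iff.2 fun g =>
    Subtype.ext (mem_centralizer_singleton_iff.1 (hc g.2))⟩, 1, fun e =>
      hz1 (congrArg (fun x => x.1.1) e)⟩⟩
  have h8 : 1 < Nat.card (center K) := Finite.one_lt_card
  have h9 := ψ.ker.card_mul_index
  rw [index_ker, MonoidHom.range_eq_top.2 hs, card_top] at h9
  have h10 := (h1 ▸ card_map_le' D (MonoidHom.fst G A)).trans h3
  have h11 := card_le_of_le h6
  have h12 : Nat.card ψ.ker ≤ 2 := by nlinarith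
  have h13 : center K = ψ.ker := eq_of_le_of_card_ge h6 (by omega)
  have h14 : Nat.card (center K) = 2 := by omega
  refine ⟨by rw [← h9, ← h13, h14], h14, ⟨(QuotientGroup.quotientMulEquivOfEq h13).trans
    (QuotientGroup.quotientKerEquivOfSurjective ψ hs)⟩, fun L hL => hg L ?_⟩
  rw [hL.index_eq_card, h14]

end cover

end Cfsg.Agent.H5
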