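import Cfsg.Agent.H5.LyxS

/-! The Lyons group as a subgroup of `GL(111, 5)`. -/

set_option autoImplicit false
set_option maxRecDepth 100000
set_option Elab.async false

namespace Cfsg.Agent.H5.Ly

open Mdl Subgroup

instance fact5 : Fact (1 < 5) := ⟨by norm_num⟩

noncomputable abbrev mA := c11md (G := alternatingGroup (Fin 11))
  (Matrix.permMatrixHom.comp (alternatingGroup (Fin 11)).subtype)
  (permHom_inj.comp Subtype.val_injective)

theorem hp0 : ∀ s < 2, mA.In ⊤ (pg0 s) := fun s hs => by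
  interval_cases s
  · exact ⟨⟨⟨![6, 4, 8, 0, 10, 3, 9, 1, 5, 7, 2], ![3, 7, 10, 5, 1, 8, 0, 9, 2, 6, 4],
      by decide, by decide⟩, Equiv.Perm.mem_alternatingGroup.2 (by decide +kernel)⟩, mem_top _,
      by decide +kernel⟩
  · exact ⟨⟨⟨![2, 7, 6, 5, 8, 0, 9, 4, 10, 1, 3], ![5, 9, 0, 10, 7, 3, 2, 1, 4, 6, 8],
      by decide, by decide⟩, Equiv.Perm.mem_alternatingGroup.2 (by decide +kernel)⟩, mem_top _,
      by decide +kernel⟩

theorem card_A : Nat.card (alternatingGroup (Fin 11)) = 19958400 := by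
  have := two_mul_nat_card_alternatingGroup (α := Fin 11)
  rw [Nat.card_perm, Nat.card_fin] at this
  simp only [Nat.factorial] at this
  omega

instance simpleA : IsSimpleGroup (alternatingGroup (Fin 11)) :=
  alternatingGroup.isSimpleGroup (by simp)

theorem center_A : center (alternatingGroup (Fin 11)) = ⊥ :=
  alternatingGroup.center_eq_bot (by simp)

theorem mem_prod_one {G M H N : Type*} [Group G] [Monoid M] [Group H] [Monoid N] {m : Mdl G M}
    {n : Mdl H N} {W : ℕ} {h1 : ∀ a b, m.mul a b < 2 ^ W} {h2 : m.one < 2 ^ W}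
    {D : Subgroup (G × H)} {gl g1 : ℕ → ℕ} (h : (m.prod n W h1 h2).In D (gl 0))
    (hc : chkPr W gl g1 (fun _ => n.one) 0 = 0) (hz : m.In ⊤ (g1 0)) : (m.elt (g1 0), 1) ∈ D := by
  obtain ⟨⟨x, y⟩, h5, h6⟩ := h
  obtain ⟨h7, h8⟩ := add_eq_zero' hc
  have h9 : x = m.elt (g1 0) := m.inj ((congrArg Prod.fst h6).trans
    ((congrArg m.ev (xor_eq_zero' h7)).trans hz.elt.symm))
  have h10 : y = 1 := n.inj ((congrArg Prod.snd h6).trans
    ((congrArg n.ev (xor_eq_zero' h8)).trans (n.ev_one.trans (map_one _).symm)))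
  exact h9 ▸ h10 ▸ h5

theorem in_cons {G M : Type*} [Group G] [Monoid M] {m : Mdl G M} {H : Subgroup G} {a n : ℕ}
    {g : ℕ → ℕ} (ha : m.In H a) (h : ∀ s < n, m.In H (g s)) : ∀ s < n + 1, m.In H (cons1 a g s)
  | 0, _ => ha
  | s + 1, hs => h s (by omega)

section

variable {G : Type*} [Group G] [Finite G] {φ : G →* Matrix (Fin 111) (Fin 111) (ZMod 5)}
  {inj : Function.Injective φ}

theorem canon : (c111md φ inj).Canon :=
  @Cfg.Ok.canon _ _ c111 c111_ok _ _ (ZMod.charP 5) _ rfl rfl φ inj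

theorem card_H (h : ∀ s < 3, (c111md φ inj).In ⊤ (eg s)) :
    Nat.card ((c111md φ inj).gn eg 3) = 5859000000 := (aex0 h).2.2.1

theorem simple_e (h : ∀ s < 3, (c111md φ inj).In ⊤ (eg s)) (ht : (c111md φ inj).gn eg 3 = ⊤) :
    IsSimpleGroup G := by
  have h0 : ∀ s < 2, (c111md φ inj).In ⊤ (bg0 s) := top_cons h
  have hK : Nat.card ((c111md φ inj).gn bg0 2) = 1500000 := (bex0 h0).2.2.1
  have he := (Hel h).mono le_top
  refine simple_of_prim _ 7 (by rw [hK]; norm_num) (fun e => ?_) (fun M hM => ?_) (bcore4 h0 he)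
    fun N _ hN => ?_
  · rw [e, ← ht, card_H h] at hK; norm_num at hK
  · rw [← ht]; exact emax h0 (h 0 (by decide)) M hM (ht ▸ le_top)
  · rw [eq_top_iff, ← ht]
    exact gn_le (in_of_chkP hN he eP)

theorem simple_H (h : ∀ s < 3, (c111md φ inj).In ⊤ (eg s)) :
    IsSimpleGroup ((c111md φ inj).gn eg 3) :=
  let m' := c111md (G := (c111md φ inj).gn eg 3) (φ.comp (Subgroup.subtype _))
    (inj.comp Subtype.val_injective)
  simple_e (fun s hs => (in_gn h s hs).sub m' (fun _ => rfl) rfl) (gn_sub_top m' (fun _ => rfl) rfl)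

theorem card_F (h : ∀ s < 3, (c111md φ inj).In ⊤ (fg s)) :
    Nat.card ((c111md φ inj).gn fg 3) = 2694384000 := le_antisymm (Fub h) (Flb h)

theorem simple_f (h : ∀ s < 3, (c111md φ inj).In ⊤ (fg s)) (ht : (c111md φ inj).gn fg 3 = ⊤) :
    Nat.card (center G) = 3 ∧ IsSimpleGroup (G ⧸ center G) ∧
      Nat.card (G ⧸ center G) = 898128000 := by
  have h0 : ∀ s < 2, (c111md φ inj).In ⊤ (sg0 s) := top_cons h
  have hK : Nat.card ((c111md φ inj).gn sg0 2) = 378000 := (sex0 h0).2.2.1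
  have he := (Fel h).mono le_top
  have key : center G = (c111md φ inj).gn sg3 2 ∧ IsSimpleGroup (G ⧸ center G) := by
    refine simple_of_dichotomy _ (gn_le fun s hs => ?_)
      (normal_dichotomy _ _ 11 (by rw [hK]; norm_num) (fun M hM => ?_) (score3 h0 he)
        fun N _ hN => ?_)
      ⟨(c111md φ inj).elt (sg0 0), (c111md φ inj).elt (sg0 1), fun e =>
        ne_of_canon (canon (φ := φ) (inj := inj)) fnc ?_⟩
    · interval_cases s
      exacts [mem_center_of_chkZ (stop3 h0 _ hs) fZ0 ht, mem_center_of_chkZ (stop3 h0 _ hs) fZ1 ht]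
    · rw [← ht]; exact fmax h0 (h 0 (by decide)) M hM (ht ▸ le_top)
    · rw [eq_top_iff, ← ht]
      exact (gn_le (in_of_chkP hN he fP)).trans le_sup_left
    · rw [← (h0 0 (by decide)).elt, ← (h0 1 (by decide)).elt, ← map_mul, e, map_mul]
  have hZ : Nat.card (center G) = 3 := key.1 ▸ (sex2 h0).2.2.2
  refine ⟨hZ, key.2, ?_⟩
  have := (center G).card_eq_card_quotient_mul_card_subgroup
  rw [← card_top (G := G), ← ht, card_F h, hZ] at this
  omega

theorem simple_F (h : ∀ s < 3, (c111md φ inj).In ⊤ (fg s)) :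
    Nat.card (center ((c111md φ inj).gn fg 3)) = 3 ∧
      IsSimpleGroup ((c111md φ inj).gn fg 3 ⧸ center ((c111md φ inj).gn fg 3)) ∧
      Nat.card ((c111md φ inj).gn fg 3 ⧸ center ((c111md φ inj).gn fg 3)) = 898128000 :=
  let m' := c111md (G := (c111md φ inj).gn fg 3) (φ.comp (Subgroup.subtype _))
    (inj.comp Subtype.val_injective)
  simple_f (fun s hs => (in_gn h s hs).sub m' (fun _ => rfl) rfl) (gn_sub_top m' (fun _ => rfl) rfl)

theorem graph (h : ∀ s < 2, (c111md φ inj).In ⊤ (kg s)) (hz : (c111md φ inj).In ⊤ (zt 0)) :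
    (c111md φ inj).El ((c111md φ inj).gn kg 2) kE ∧
      Nat.card ((c111md φ inj).gn kg 2) = 2 * Nat.card (alternatingGroup (Fin 11)) ∧
      Nat.card (center ((c111md φ inj).gn kg 2)) = 2 ∧
      Nonempty ((c111md φ inj).gn kg 2 ⧸ center ((c111md φ inj).gn kg 2) ≃*
        alternatingGroup (Fin 11)) ∧
      ∀ L, ¬ (center ((c111md φ inj).gn kg 2)).IsComplement' L := by
  have hD := in_prod (m := c111md φ inj) (n := mA) (h1 := pq_lt) (h2 := pq_lt1) qP h hp0
  have h1 := map_fst_gn (m := c111md φ inj) (n := mA) (h1 := pq_lt) (h2 := pq_lt1) qP hp0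
  have h2 := map_snd_gn (m := c111md φ inj) (n := mA) (h1 := pq_lt) (h2 := pq_lt1) qP h
  have h3 := El.fst (m := c111md φ inj) (n := mA) (h1 := pq_lt) (h2 := pq_lt1) (qel0 hD)
  have h4 := h2.trans (eq_top_of_le_card _ (card_A.trans_le (plb0 hp0)))
  have h5 := mem_prod_one (m := c111md φ inj) (n := mA) (h1 := pq_lt) (h2 := pq_lt1)
    (in_of_chkE (qel0 hD) zpE 0 (by decide)) (zpP 0 (by decide)) hz
  have h11 := orderOf_elt canon hz Nat.prime_two zO.1 zO.2.2.1
  have h12 := prime_dvd canon (in_gn h 0 (by decide)) (by norm_num : Nat.Prime 11)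
    (xor_eq_zero' (kO 0 (by decide))) kne
  have h13 := cover_of_diag center_A _ h1 h4 ((qub0 hD).trans (by rw [card_A])) h5
    (fun e => by rw [e, orderOf_one] at h11; omega) (comm_of_chkZ hz kZ)
    (lt_of_lt_of_le (by norm_num) (Nat.le_of_dvd Nat.card_pos h12))
    (no_index_two h (by norm_num) kO)
  exact ⟨El.mono h1.le h3, h13⟩

variable (h : ∀ s < 4, (c111md φ inj).In ⊤ (dg s)) (ht : (c111md φ inj).gn dg 4 = ⊤)
include h

theorem hb : ∀ s < 3, (c111md φ inj).In ⊤ (eg s) := top_cons h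

theorem el : (c111md φ inj).El ⊤ de := (del (hb h) (h 0 (by decide))).mono le_top

theorem het (s : ℕ) (hs : s < 5) {a : ℕ} (e : et s = a) : (c111md φ inj).In ⊤ a :=
  e ▸ in_of_chkE (el h) etE s hs

theorem hf : ∀ s < 3, (c111md φ inj).In ⊤ (fg s) :=
  in_cons (het h 2 (by decide) etO.2.2.1) (top_cons (utop (hb h)))

theorem hk : ∀ s < 2, (c111md φ inj).In ⊤ (kg s) := fun s hs => by
  interval_cases s
  exacts [het h 3 (by decide) etO.2.2.2.1, het h 4 (by decide) etO.2.2.2.2]

theorem hz : ∀ s < 2, (c111md φ inj).In ⊤ (zt s) := fun s hs => (zin (hb h) s hs).top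

include ht

theorem card_G : Nat.card G = 51765179004000000 := by
  have h1 : Nat.card G ≤ 51765179004000000 := by
    rw [← card_top, ← ht]; exact dub (hb h) (h 0 (by decide))
  have a1 := (show 256 ∣ 2 * 19958400 by norm_num).trans
    (card_A ▸ (graph (hk h) (hz h 0 (by decide))).2.1 ▸ card_subgroup_dvd_card _)
  have a2 := (show 24057 ∣ 2694384000 by norm_num).trans (card_F (hf h) ▸ card_subgroup_dvd_card _)
  have a3 := (show 3390625 ∣ 5859000000 by norm_num).trans
    (card_H (hb h) ▸ card_subgroup_dvd_card _)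
  have a4 := card_top (G := G) ▸ prime_dvd canon (in_of_chkE (el h) etE 0 (by decide))
    (by norm_num : Nat.Prime 37) etO.1 etO.2.1
  have a5 := card_top (G := G) ▸ prime_dvd canon (in_of_chkE (el h) etE 1 (by decide))
    (by norm_num : Nat.Prime 67) etP.1 etP.2
  exact le_antisymm h1 (Nat.le_of_dvd Nat.card_pos
    (Nat.Coprime.mul_dvd_of_dvd_of_dvd (by norm_num) (Nat.Coprime.mul_dvd_of_dvd_of_dvd (by norm_num)
      (Nat.Coprime.mul_dvd_of_dvd_of_dvd (by norm_num)
        (Nat.Coprime.mul_dvd_of_dvd_of_dvd (by norm_num) a1 a2) a3) a4) a5))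

theorem simple : IsSimpleGroup G := by
  have h0 := hb h
  have h1 := h 0 (by decide)
  refine simple_of_prim _ 11 (by rw [card_H h0]; norm_num) (fun e => ?_) (fun M hM => ?_)
    (fun N hN hle => core_simple (simple_H h0) hN hle (d := (c111md φ inj).elt (dD 1)) fun e' => ?_)
    fun N _ hN => ?_
  · have := card_H h0
    rw [e, card_top, card_G h ht] at this
    norm_num at this
  · rw [← ht]; exact dmax h0 h1 M hM (ht ▸ le_top)
  · have := dex h0 h1 (card_H h0) (by rw [ht, card_top, card_G h ht]) 1 (by decide)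
    rw [e', card_H h0] at this
    exact absurd this (by decide)
  · rw [eq_top_iff, ← ht]
    exact gn_le (in_of_chkP hN (el h) dP)

theorem cent_two : ∃ t : G, orderOf t = 2 ∧ Nat.card (center (centralizer ({t} : Set G))) = 2 ∧
    Nonempty (centralizer ({t} : Set G) ⧸ center (centralizer ({t} : Set G)) ≃*
      alternatingGroup (Fin 11)) ∧ ∀ L, ¬ (center (centralizer ({t} : Set G))).IsComplement' L := by
  have h0 := hb h
  have h1 := h 0 (by decide)
  have ho := orderOf_elt canon (hz h 0 (by decide)) Nat.prime_two zO.1 zO.2.2.1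
  have hc := comm_of_chkZ (hz h 0 (by decide)) kZ
  have hg := graph (hk h) (hz h 0 (by decide))
  have h2 := centG2 h0 h1 (dex h0 h1 (card_H h0) (by rw [ht, card_top, card_G h ht])) ho hg.1 hc
  rw [ht, top_inf_eq] at h2
  exact ⟨_, ho, le_antisymm hc h2 ▸ hg.2.2⟩

theorem cent_three : ∃ x : G, orderOf x = 3 ∧ Nat.card (center (centralizer ({x} : Set G))) = 3 ∧
    IsSimpleGroup (centralizer ({x} : Set G) ⧸ center (centralizer ({x} : Set G))) ∧
    Nat.card (centralizer ({x} : Set G) ⧸ center (centralizer ({x} : Set G))) = 898128000 := by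
  have h0 := hb h
  have h1 := h 0 (by decide)
  have ho := orderOf_elt canon (hz h 1 (by decide)) Nat.prime_three zO.2.1 zO.2.2.2
  have hc := comm_of_chkZ (hz h 1 (by decide)) xZ
  have h2 := centG3 h0 h1 (dex h0 h1 (card_H h0) (by rw [ht, card_top, card_G h ht])) ho
    (Fel (hf h)) hc
  rw [ht, top_inf_eq] at h2
  exact ⟨_, ho, le_antisymm hc h2 ▸ simple_F (hf h)⟩

end

noncomputable abbrev m0 := c111md (G := GL (Fin 111) (ZMod 5)) (Units.coeHom _) Units.val_injective

theorem h00 : ∀ s < 4, m0.In ⊤ (dg s) := in_of_chkI m0 (fun _ => rfl) dI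

/-- the group -/
noncomputable abbrev G0 := m0.gn dg 4

noncomputable abbrev m1 := c111md (G := G0) ((Units.coeHom _).comp (Subgroup.subtype _))
    (Units.val_injective.comp Subtype.val_injective)

theorem h10 : ∀ s < 4, m1.In ⊤ (dg s) := fun s hs => (in_gn h00 s hs).sub m1 (fun _ => rfl) rfl

theorem ht1 : m1.gn dg 4 = ⊤ := gn_sub_top m1 (fun _ => rfl) rfl

theorem cent_two' {P : Type*} [Group P] (e : G0 ≃* P) :
    ∃ t : P, orderOf t = 2 ∧ Nat.card (center (centralizer ({t} : Set P))) = 2 ∧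
    Nonempty (centralizer ({t} : Set P) ⧸ center (centralizer ({t} : Set P)) ≃*
      alternatingGroup (Fin 11)) ∧ ∀ L, ¬ (center (centralizer ({t} : Set P))).IsComplement' L := by
  have : Finite P := Finite.of_equiv _ e.toEquiv
  let m2 := c111md (G := P) (m1.φ.comp e.symm.toMonoidHom) (m1.inj.comp e.symm.injective)
  have h1 : ∀ g, m2.φ (e g) = m1.φ g := fun g => congrArg m1.φ (e.symm_apply_apply g)
  have h2 : ∀ s < 4, m2.In ⊤ (dg s) := fun s hs => In.map (m := m1) e m2 h1 rfl (h10 s hs)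
  have h3 : m2.gn dg 4 = ⊤ := by
    rw [gn_map (m := m1) e m2 h1 rfl, ht1]
    exact map_top_of_surjective _ e.surjective
  exact cent_two h2 h3

end Cfsg.Agent.H5.Ly
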